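import Groth.Agent.Vancyc.H677.Main0

/-!
# Degree zero: the unit map on stalks is an isomorphism once the target is isomorphic to `ℤ/N`
-/

set_option autoImplicit false
universe u
open CategoryTheory CategoryTheory.Limits AlgebraicGeometry Opposite

namespace Groth.Agent.Vancyc.H727.Deg0

open Groth.Agent

variable (R K Ω : Type u) [CommRing R] [IsDomain R] [HenselianLocalRing R]
  [IsSepClosed (IsLocalRing.ResidueField R)] [Field K] [Algebra R K] [IsFractionRing R K] [Field Ω] [Algebra K Ω]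
  [IsSepClosed Ω] [Algebra R Ω] [IsScalarTower R K Ω]
  {X : Scheme.{u}} (f : X ⟶ Spec (CommRingCat.of R)) [LocallyOfFiniteType f] [Flat f]
  {Ω' : Type u} [Field Ω'] [IsSepClosed Ω'] (ξ : Spec (CommRingCat.of Ω') ⟶ VanCyc.spFib R f)

theorem isIso_of_injective {A B : AddCommGrpCat.{u + 1}} (φ : A ⟶ B) [Mono φ] (N : ℕ) [NeZero N]
    (e : (A : Type (u + 1)) ≃+ ZMod N) (e' : (B : Type (u + 1)) ≃+ ZMod N) : IsIso φ := by
  have hinj : Function.Injective φ := (AddCommGrpCat.mono_iff_injective φ).1 inferInstance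
  have hf : Finite (B : Type (u + 1)) := Finite.of_equiv _ e'.symm.toEquiv
  have hb : Function.Bijective φ := hinj.bijective_of_nat_card_le (by
    rw [Nat.card_congr e.toEquiv, Nat.card_congr e'.toEquiv])
  exact (ConcreteCategory.isIso_iff_bijective φ).2 hb

include K in
theorem isIso_psi0Unit (N : ℕ) [NeZero N]
    (e : ((EtCoh.stalk ξ).obj (VanCyc.psi R Ω f 0 ((EtCoh.pull (VanCyc.jA R f Ω)).obj (EtCoh.const X (ZMod N)))) :
      AddCommGrpCat.{u + 1}) ≃+ ZMod N) :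
    IsIso ((EtCoh.stalk ξ).map (VanCyc.psi0Unit R Ω f (EtCoh.const X (ZMod N)))) := by
  have hm := H677.Main0.mono_psi0Unit R K Ω f ξ (ZMod N)
  let e1 : (EtCoh.stalk ξ).obj (VanCyc.psi0 R Ω f ((EtCoh.pull (VanCyc.jA R f Ω)).obj (EtCoh.const X (ZMod N)))) ≅
      (EtCoh.stalk ξ).obj (VanCyc.psi R Ω f 0 ((EtCoh.pull (VanCyc.jA R f Ω)).obj (EtCoh.const X (ZMod N)))) :=
    (EtCoh.stalk ξ).mapIso ((EtCoh.pull (VanCyc.icl R f)).mapIso
      ((EtCoh.push (VanCyc.jA R f Ω)).rightDerivedZeroIsoSelf.symm.app _))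
  let e3 : (EtCoh.stalk ξ).obj ((EtCoh.pull (VanCyc.icl R f)).obj (EtCoh.const X (ZMod N))) ≃+ ZMod N :=
    (((EtCoh.stalk ξ).mapIso (EtCore.pullConst (VanCyc.icl R f) (ZMod N)) ≪≫
      Groth.Agent.Sga4h.StalkAcyc.stalkConstIso ξ (ZMod N)).addCommGroupIsoToAddEquiv).trans AddEquiv.ulift
  exact isIso_of_injective _ N e3 (e1.addCommGroupIsoToAddEquiv.trans e)

end Groth.Agent.Vancyc.H727.Deg0
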