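import Groth.Agent.Vancyc.H697.PsiEt
import Groth.Agent.Vancyc.H694.GeomPt

/-!
# The stalk of the nearby cycles of a constant sheaf depends only on a common étale neighbourhood

`nonempty_psiSt_common` : `(X, x)` and `(Y, y)` with a common étale neighbourhood over `R`, `ℓ` invertible in `R`: the stalk
`Ψ^q(ℤ/ℓ)_ξ` at a geometric point `ξ` of `X_s` over `x` is the stalk of `R^q jbar_* ℤ/ℓ` at any geometric point of `Y` over `y`.
-/

set_option autoImplicit false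
universe u
open CategoryTheory CategoryTheory.Limits AlgebraicGeometry Opposite

namespace Groth.Agent.Vancyc.H727.Transport

open Groth.Agent Groth.Agent.Vancyc.H697.E4Core Groth.Agent.Vancyc.H697.PsiEt
open Groth.Agent.Vancyc.H694.StdT

theorem nonempty_psiSt_common {R Ω : Type u} [CommRing R] [IsLocalRing R] [Field Ω] [Algebra R Ω]
    {X Y : Scheme.{u}} (f : X ⟶ Spec (CommRingCat.of R)) (g : Y ⟶ Spec (CommRingCat.of R))
    (x : ↥(VanCyc.spFib R f)) (y : Y) (h : HasCommonEt f g ((VanCyc.icl R f).base x) y)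
    (ℓ : ℕ) (hℓ : IsUnit (ℓ : R)) {Ω' : Type u} [Field Ω'] [IsSepClosed Ω']
    (ξ : Spec (CommRingCat.of Ω') ⟶ VanCyc.spFib R f)
    (hξ : ξ.base (IsLocalRing.closedPoint Ω') = x)
    {Ω₃ : Type u} [Field Ω₃] [IsSepClosed Ω₃] (η : Spec (CommRingCat.of Ω₃) ⟶ Y)
    (hη : η default = y) (q : ℕ) :
    Nonempty (psiSt R Ω f ℓ ξ q ≅ (EtCoh.stalk η).obj ((EtCoh.Rpush (VanCyc.jA R g Ω) q).obj
      (EtCoh.const (VanCyc.fib R g Ω) (ZMod ℓ)))) := by
  obtain ⟨U, p, q', hp, hq', w, ζ, η', h1, h2, h3, h4⟩ :=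
    H694.GeomPt.exists_of_hasCommonEt R f g x y h ξ hξ
  have hw : ζ ≫ (p ≫ f) = (ξ ≫ VanCyc.spStr R f) ≫ VanCyc.toSk R := by
    rw [← Category.assoc, h1, Category.assoc, Category.assoc, pullback.condition]
  let ξU : Spec (CommRingCat.of Ω') ⟶ VanCyc.spFib R (p ≫ f) := pullback.lift ζ (ξ ≫ VanCyc.spStr R f) hw
  have hU : ξU ≫ VanCyc.icl R (p ≫ f) = ζ := pullback.lift_fst _ _ _
  have hd : (default : Spec (CommRingCat.of Ω')) = IsLocalRing.closedPoint Ω' := Subsingleton.elim _ _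
  have e1 : p.base ((VanCyc.icl R (p ≫ f)).base (ξU default)) = (VanCyc.icl R f).base (ξ default) := by
    have : (ξU ≫ VanCyc.icl R (p ≫ f)) ≫ p = ξ ≫ VanCyc.icl R f := by rw [hU, h1]
    have h5 := congrArg (fun (k : Spec (CommRingCat.of Ω') ⟶ X) => k default) this
    exact h5
  have e2 : q'.base ((VanCyc.icl R (p ≫ f)).base (ξU default)) = (VanCyc.icl R g).base (η' default) := by
    have : (ξU ≫ VanCyc.icl R (p ≫ f)) ≫ q' = η' ≫ VanCyc.icl R g := by rw [hU, h2]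
    have h5 := congrArg (fun (k : Spec (CommRingCat.of Ω') ⟶ Y) => k default) this
    exact h5
  obtain ⟨i1⟩ := nonempty_psiSt (Ω := Ω) f (p ≫ f) p rfl ℓ hℓ ξU ξ e1 q
  obtain ⟨i2⟩ := nonempty_psiSt (Ω := Ω) g (p ≫ f) q' w.symm ℓ hℓ ξU η' e2 q
  obtain ⟨i3⟩ := EtpbcB.GeomPointIndep.nonempty_stalkIso (η' ≫ VanCyc.icl R g) η (by
    rw [hη, ← h4, hd]
    rfl)
  exact ⟨i1.symm ≪≫ i2 ≪≫ psiStIso g ℓ η' q ≪≫ i3.app _⟩

end Groth.Agent.Vancyc.H727.Transport
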